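import Cfsg.Agent.H951.UF.Num

/-!
# Box X3 of S3435, packet P-E: row `³D₄(u)`, the numerical part (helper18)
-/

set_option autoImplicit false
set_option linter.unusedVariables false

namespace Cfsg.Agent.R2.Spec.X3.H18

open Cfsg.Agent.H951.UF (fb_le f_pos)

/-! ### type I -/

section one

variable {p x u a : ℤ} (hu : 3 ≤ u) (hx : 5 ≤ x) (ha : 1 ≤ a) (hodd : a % 2 = 1)
  (hT : 2 * (u ^ 4 - u ^ 2 + 1) = a * (x ^ 2 + 1))

include hu hx ha hT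

omit hu hx in
theorem d1_le : x ^ 2 + 1 ≤ 2 * (u ^ 4 - u ^ 2 + 1) := by
  rw [hT]
  nlinarith [sq_nonneg x]

theorem d1_lt : 2 * x < 3 * u ^ 2 := by
  have h1 := d1_le ha hT
  by_contra h
  push Not at h
  have h3 : 0 ≤ 3 * u ^ 2 := by positivity
  have h4 : (3 * u ^ 2) * (3 * u ^ 2) ≤ (2 * x) * (2 * x) := mul_self_le_mul_self h3 h
  nlinarith [sq_nonneg u, sq_nonneg (u ^ 2)]

include hodd

/-- not a divisor of `x² - 1` -/
theorem d1_not_C {ε : ℤ} (hε : ε = 1 ∨ ε = -1) (hd : (u ^ 2 - 1) * (u ^ 2 + ε * u + 1) ∣ x ^ 2 - 1) : False := by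
  have hpos : 0 < x ^ 2 - 1 := by nlinarith
  rcases (by omega : a = 1 ∨ 3 ≤ a) with ha1 | ha3
  · subst ha1
    have e : x ^ 2 - 1 = (u ^ 2 - 1) * (2 * u ^ 2) := by linear_combination -hT
    rw [e] at hd
    have hne : u ^ 2 - 1 ≠ 0 := by nlinarith
    have h1 := (mul_dvd_mul_iff_left hne).1 hd
    have hcop : IsCoprime (u ^ 2 + ε * u + 1) (u ^ 2) := by
      apply IsCoprime.pow_right
      exact ⟨1, -(u + ε), by ring⟩
    have h2 := hcop.dvd_of_dvd_mul_right h1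
    have h3 := Int.le_of_dvd (by norm_num) h2
    rcases hε with rfl | rfl <;> nlinarith
  · have h1 := Int.le_of_dvd hpos hd
    have h2 := fb_le hu hε
    have h3 : 3 * (x ^ 2 + 1) ≤ 2 * (u ^ 4 - u ^ 2 + 1) := by
      rw [hT]
      nlinarith [sq_nonneg x]
    have h4 : 0 < u ^ 4 - 3 * u ^ 3 + 2 * u ^ 2 + 3 * u + 1 := by
      have : u ^ 4 - 3 * u ^ 3 + 2 * u ^ 2 + 3 * u + 1 = u ^ 3 * (u - 3) + 2 * u ^ 2 + 3 * u + 1 := by ring
      rw [this]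
      have : 0 ≤ u ^ 3 * (u - 3) := mul_nonneg (by positivity) (by linarith)
      positivity
    nlinarith

/-- not a divisor of `p (x - 1)` -/
theorem d1_not_E (hp0 : 0 < p) (hpx : p = x ∨ 5 * p ≤ x) {ε : ℤ} (hε : ε = 1 ∨ ε = -1)
    (hd : (u ^ 2 - 1) * (u ^ 2 + ε * u + 1) ∣ p * (x - 1)) : False := by
  have h2x := d1_lt hu hx ha hT
  have hsq := d1_le ha hT
  have hfb := fb_le hu hε
  have hfp := f_pos hu hε
  have u3 : 27 ≤ u ^ 3 := by nlinarith [sq_nonneg u, mul_self_nonneg (u - 3)]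
  have u43 : 3 * u ^ 3 ≤ u ^ 4 := by
    have : u ^ 4 = u * u ^ 3 := by ring
    rw [this]
    exact mul_le_mul_of_nonneg_right hu (by positivity)
  have u32 : 3 * u ^ 2 ≤ u ^ 3 := by
    have : u ^ 3 = u * u ^ 2 := by ring
    rw [this]
    exact mul_le_mul_of_nonneg_right hu (by positivity)
  have u2 : 3 * u ≤ u ^ 2 := by nlinarith
  have hle := Int.le_of_dvd (mul_pos hp0 (by linarith)) hd
  rcases hpx with hpx | hpx
  swap
  · have h1 : 5 * (p * (x - 1)) ≤ x * (x - 1) := by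
      have := mul_le_mul_of_nonneg_right hpx (by linarith : (0 : ℤ) ≤ x - 1)
      linarith
    have h3 : x * (x - 1) = x ^ 2 - x := by ring
    nlinarith
  · subst hpx
    have e : p * (p - 1) = p ^ 2 - p := by ring
    rw [e] at hd hle
    rcases (by omega : a = 1 ∨ 3 ≤ a) with ha1 | ha3
    · subst ha1
      have hq2 : p ^ 2 = 2 * u ^ 4 - 2 * u ^ 2 + 1 := by linarith
      obtain ⟨j, hj⟩ := hd
      have hj0 : 0 < j := by
        by_contra h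
        push Not at h
        have : (u ^ 2 - 1) * (u ^ 2 + ε * u + 1) * j ≤ 0 := mul_nonpos_of_nonneg_of_nonpos hfp.le h
        nlinarith
      rcases hε with rfl | rfl
      · have e2 : (u ^ 2 - 1) * (u ^ 2 + 1 * u + 1) = u ^ 4 + u ^ 3 - u - 1 := by ring
        rw [e2] at hj hfp
        rcases (by omega : j = 1 ∨ 2 ≤ j) with h1 | h1
        · subst h1
          nlinarith
        · have h3 : (u ^ 4 + u ^ 3 - u - 1) * 2 ≤ (u ^ 4 + u ^ 3 - u - 1) * j := mul_le_mul_of_nonneg_left h1 hfp.le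
          nlinarith
      · have e2 : (u ^ 2 - 1) * (u ^ 2 + -1 * u + 1) = u ^ 4 - u ^ 3 + u - 1 := by ring
        rw [e2] at hj hfp
        rcases (by omega : j = 1 ∨ j = 2 ∨ 3 ≤ j) with h1 | h1 | h1
        · subst h1
          nlinarith
        · subst h1
          nlinarith
        · have h3 : (u ^ 4 - u ^ 3 + u - 1) * 3 ≤ (u ^ 4 - u ^ 3 + u - 1) * j := mul_le_mul_of_nonneg_left h1 hfp.le
          nlinarith
    · have h3 : 3 * (p ^ 2 + 1) ≤ 2 * (u ^ 4 - u ^ 2 + 1) := by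
        rw [hT]
        nlinarith [sq_nonneg p]
      nlinarith

end one

/-- both divide -/
theorem both_dvd {c X u : ℤ} (hc : c ≠ 0) (hu : u ^ 2 - 1 ≠ 0) (h1 : c * ((u ^ 2 - 1) * (u ^ 2 + 1 * u + 1)) ∣ X)
    (h3 : c * ((u ^ 2 - 1) * (u ^ 2 + (-1) * u + 1)) ∣ X) : c * (u ^ 6 - 1) ∣ X := by
  obtain ⟨y, hy⟩ : c * (u ^ 2 - 1) ∣ X := (Dvd.intro (u ^ 2 + 1 * u + 1) (by ring)).trans h1
  have hne : c * (u ^ 2 - 1) ≠ 0 := mul_ne_zero hc hu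
  rw [hy] at h1 h3 ⊢
  have e1 : c * ((u ^ 2 - 1) * (u ^ 2 + 1 * u + 1)) = c * (u ^ 2 - 1) * (u ^ 2 + u + 1) := by ring
  have e3 : c * ((u ^ 2 - 1) * (u ^ 2 + (-1) * u + 1)) = c * (u ^ 2 - 1) * (u ^ 2 - u + 1) := by ring
  have e6 : c * (u ^ 6 - 1) = c * (u ^ 2 - 1) * ((u ^ 2 + u + 1) * (u ^ 2 - u + 1)) := by ring
  rw [e1] at h1
  rw [e3] at h3
  rw [e6]
  have h4 := (mul_dvd_mul_iff_left hne).1 h1
  have h5 := (mul_dvd_mul_iff_left hne).1 h3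
  have hcop : IsCoprime (u ^ 2 + u + 1) (u ^ 2 - u + 1) := by
    have hc1 : IsCoprime (u ^ 2 + u + 1) (2 * u) := by
      apply IsCoprime.mul_right
      · obtain ⟨k, hk⟩ := Int.even_mul_succ_self u
        exact ⟨1, -k, by linear_combination hk⟩
      · exact ⟨1, -(u + 1), by ring⟩
    obtain ⟨s, t, hst⟩ := hc1
    exact ⟨s + t, -t, by linear_combination hst⟩
  exact (mul_dvd_mul_iff_left hne).2 (hcop.mul_dvd h4 h5)

/-- **type I** -/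
theorem d4_numI {p x u a : ℤ} (hu : 3 ≤ u) (hx : 5 ≤ x) (ha : 1 ≤ a) (hodd : a % 2 = 1)
    (hT : 2 * (u ^ 4 - u ^ 2 + 1) = a * (x ^ 2 + 1)) (hp0 : 0 < p) (hpx : p = x ∨ 5 * p ≤ x) (hpd : p ∣ x)
    (hF : ∀ ε : ℤ, ε = 1 ∨ ε = -1 → 4 * ((u ^ 2 - 1) * (u ^ 2 + ε * u + 1)) ∣ x ^ 3 - 1 ∨
      (u ^ 2 - 1) * (u ^ 2 + ε * u + 1) ∣ x ^ 2 - 1 ∨ 4 * ((u ^ 2 - 1) * (u ^ 2 + ε * u + 1)) ∣ p * (x ^ 2 - 1) ∨
      (u ^ 2 - 1) * (u ^ 2 + ε * u + 1) ∣ p * (x - 1)) : False := by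
  have hpx' : p ≤ x := by rcases hpx with h | h <;> linarith
  have hsq := d1_le ha hT
  have h2x := d1_lt hu hx ha hT
  have hx25 : 25 ≤ x ^ 2 := by nlinarith
  have hA0 : 0 < x ^ 3 - 1 := by nlinarith
  have hD0 : 0 < p * (x ^ 2 - 1) := mul_pos hp0 (by nlinarith)
  have hDq : p * (x ^ 2 - 1) ≤ x ^ 3 - 1 := by
    have h1 : p * (x ^ 2 - 1) ≤ x * (x ^ 2 - 1) := mul_le_mul_of_nonneg_right hpx' (by nlinarith)
    have h2 : x * (x ^ 2 - 1) = x ^ 3 - x := by ring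
    linarith
  have hu1 : u ^ 2 - 1 ≠ 0 := by nlinarith
  have key : ∀ {ε : ℤ} {X : ℤ}, 4 * ((u ^ 2 - 1) * (u ^ 2 + ε * u + 1)) ∣ X → 4 * (u ^ 2 - 1) ∣ X :=
    fun {ε X} h => (Dvd.intro (u ^ 2 + ε * u + 1) (by ring)).trans h
  have both : ∀ X : ℤ, 0 < X → X ≤ x ^ 3 - 1 → 4 * ((u ^ 2 - 1) * (u ^ 2 + 1 * u + 1)) ∣ X →
      4 * ((u ^ 2 - 1) * (u ^ 2 + (-1) * u + 1)) ∣ X → False := by
    intro X hX hXq h1 h3
    have h4 := Int.le_of_dvd hX (both_dvd (by norm_num) hu1 h1 h3)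
    have h9 : x ^ 2 ≤ 2 * u ^ 4 := by nlinarith
    have h10 : x ^ 3 * 2 ≤ 6 * u ^ 6 := by
      calc x ^ 3 * 2 = x ^ 2 * (2 * x) := by ring
        _ ≤ (2 * u ^ 4) * (3 * u ^ 2) := mul_le_mul h9 h2x.le (by linarith) (by positivity)
        _ = 6 * u ^ 6 := by ring
    have h11 : 27 * 27 ≤ u ^ 6 := by
      have h12 : 27 ≤ u ^ 3 := by nlinarith [sq_nonneg u, mul_self_nonneg (u - 3)]
      calc (27 : ℤ) * 27 ≤ u ^ 3 * u ^ 3 := mul_self_le_mul_self (by norm_num) h12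
        _ = u ^ 6 := by ring
    linarith
  have mixed : 4 * (u ^ 2 - 1) ∣ x ^ 3 - 1 → 4 * (u ^ 2 - 1) ∣ p * (x ^ 2 - 1) → False := by
    intro h1 h3
    have hcop : IsCoprime (4 * (u ^ 2 - 1)) p := by
      have h4 : IsCoprime (x ^ 3 - 1) x := ⟨-1, x ^ 2, by ring⟩
      exact (h4.of_isCoprime_of_dvd_left h1).of_isCoprime_of_dvd_right hpd
    have h5 := hcop.dvd_of_dvd_mul_left h3
    have h6 : 4 * (u ^ 2 - 1) ∣ x - 1 := by
      have : x - 1 = (x ^ 3 - 1) - x * (x ^ 2 - 1) := by ring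
      rw [this]
      exact dvd_sub h1 (h5.mul_left x)
    have h7 := Int.le_of_dvd (by linarith) h6
    nlinarith
  rcases hF 1 (Or.inl rfl) with h1 | h1 | h1 | h1
  · rcases hF (-1) (Or.inr rfl) with h2 | h2 | h2 | h2
    · exact both _ hA0 le_rfl h1 h2
    · exact d1_not_C hu hx ha hodd hT (Or.inr rfl) h2
    · exact mixed (key h1) (key h2)
    · exact d1_not_E hu hx ha hodd hT hp0 hpx (Or.inr rfl) h2
  · exact d1_not_C hu hx ha hodd hT (Or.inl rfl) h1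
  · rcases hF (-1) (Or.inr rfl) with h2 | h2 | h2 | h2
    · exact mixed (key h2) (key h1)
    · exact d1_not_C hu hx ha hodd hT (Or.inr rfl) h2
    · exact both _ hD0 hDq h1 h2
    · exact d1_not_E hu hx ha hodd hT hp0 hpx (Or.inr rfl) h2
  · exact d1_not_E hu hx ha hodd hT hp0 hpx (Or.inl rfl) h1

/-! ### type II -/

/-- data, type II -/
structure TwoD (p x u : ℤ) : Prop where
  hu : 3 ≤ u
  hx : 7 ≤ x ∨ x ≤ -13
  x4 : x % 4 = 3
  hp0 : 0 < p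
  pd : p ∣ x
  pc : p = |x| ∨ 5 * p ≤ |x|

theorem le_abs_of_dvd {N X : ℤ} (h : N ∣ X) (hX : X ≠ 0) : N ≤ |X| := Int.le_of_dvd (abs_pos.2 hX) ((dvd_abs _ _).2 h)

section two

variable {p x u δ : ℤ} (D : TwoD p x u)

include D

theorem TwoD.y : 7 ≤ |x| ∧ |x| * |x| = x ^ 2 ∧ p ≤ |x| ∧ 13 * |x - 1| ≤ 14 * |x| ∧ |x + 1| ≤ |x| + 1 ∧
    12 * x ^ 2 ≤ 13 * (x ^ 2 + x + 1) ∧ |x - 1| ≤ |x| + 1 := by
  have hx := D.hx
  refine ⟨?_, by rw [← sq, sq_abs], ?_, ?_, ?_, ?_, ?_⟩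
  · rw [le_abs]; omega
  · have := abs_nonneg x
    rcases D.pc with h | h
    · exact h.le
    · have := D.hp0; linarith
  · rcases hx with h | h
    · rw [abs_of_nonneg (by omega : 0 ≤ x), abs_of_nonneg (by omega : 0 ≤ x - 1)]; omega
    · rw [abs_of_nonpos (by omega : x ≤ 0), abs_of_nonpos (by omega : x - 1 ≤ 0)]; omega
  · rcases hx with h | h
    · rw [abs_of_nonneg (by omega : 0 ≤ x), abs_of_nonneg (by omega : 0 ≤ x + 1)]
    · rw [abs_of_nonpos (by omega : x ≤ 0), abs_of_nonpos (by omega : x + 1 ≤ 0)]; omega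
  · rcases hx with h | h <;> nlinarith
  · rcases hx with h | h
    · rw [abs_of_nonneg (by omega : 0 ≤ x), abs_of_nonneg (by omega : 0 ≤ x - 1)]; omega
    · rw [abs_of_nonpos (by omega : x ≤ 0), abs_of_nonpos (by omega : x - 1 ≤ 0)]; omega

theorem TwoD.ne : x ^ 2 - 1 ≠ 0 ∧ p * (x - 1) ≠ 0 ∧ p * (x ^ 2 - 1) ≠ 0 ∧ (x ^ 2 + 1) * (x + 1) ≠ 0 ∧ x - 1 ≠ 0 := by
  have hx := D.hx
  have hp := D.hp0
  have h1 : x ^ 2 - 1 ≠ 0 := by rcases hx with h | h <;> nlinarith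
  have h2 : x - 1 ≠ 0 := by omega
  exact ⟨h1, mul_ne_zero hp.ne' h2, mul_ne_zero hp.ne' h1, mul_ne_zero (by positivity) (by omega), h2⟩

/-- `N ∣ p (x - 1)` gives `13 N ≤ 14 x²` -/
theorem TwoD.E_le {N : ℤ} (h : N ∣ p * (x - 1)) : 13 * N ≤ 14 * x ^ 2 := by
  obtain ⟨h7, hy2, hpy, h14, -, -, -⟩ := D.y
  have h1 := le_abs_of_dvd h D.ne.2.1
  rw [abs_mul, abs_of_pos D.hp0] at h1
  have h2 : p * |x - 1| ≤ |x| * |x - 1| := mul_le_mul_of_nonneg_right hpy (abs_nonneg _)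
  have h3 : |x| * (13 * |x - 1|) ≤ |x| * (14 * |x|) := mul_le_mul_of_nonneg_left h14 (abs_nonneg _)
  nlinarith

/-- `2 N ∣ δ (x - 1)` gives `26 N ≤ 6 x²` -/
theorem TwoD.F_le {N : ℤ} (hδ : δ = 1 ∨ δ = 3) (h : 2 * N ∣ δ * (x - 1)) : 26 * N ≤ 6 * x ^ 2 := by
  obtain ⟨h7, hy2, hpy, h14, -, -, -⟩ := D.y
  have hδ0 : 0 < δ := by rcases hδ with h | h <;> omega
  have hδ3 : δ ≤ 3 := by rcases hδ with h | h <;> omega
  have h1 := le_abs_of_dvd h (mul_ne_zero hδ0.ne' D.ne.2.2.2.2)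
  rw [abs_mul, abs_of_pos hδ0] at h1
  have h2 : δ * |x - 1| ≤ 3 * |x - 1| := mul_le_mul_of_nonneg_right hδ3 (abs_nonneg _)
  have h3 : 7 * |x| ≤ |x| * |x| := mul_le_mul_of_nonneg_right h7 (abs_nonneg _)
  nlinarith

theorem TwoD.B_le {N : ℤ} (h : N ∣ (x ^ 2 + 1) * (x + 1)) : 5 * N ≤ 6 * |x| ^ 3 := by
  obtain ⟨h7, hy2, hpy, h14, h15, -, -⟩ := D.y
  have h1 := le_abs_of_dvd h D.ne.2.2.2.1
  rw [abs_mul, abs_of_pos (by positivity : (0 : ℤ) < x ^ 2 + 1), ← hy2] at h1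
  generalize |x| = y at *
  have h2 : (y * y + 1) * |x + 1| ≤ (y * y + 1) * (y + 1) := mul_le_mul_of_nonneg_left h15 (by positivity)
  have h3 : 0 ≤ y ^ 3 - 5 * (y ^ 2 + y + 1) := by
    obtain ⟨t, ht, rfl⟩ : ∃ t : ℤ, 0 ≤ t ∧ y = t + 7 := ⟨y - 7, by omega, by ring⟩
    clear * - ht
    ring_nf
    positivity
  nlinarith

theorem TwoD.D_le {N : ℤ} (h : N ∣ p * (x ^ 2 - 1)) : N ≤ |x| ^ 3 ∧ (5 * p ≤ |x| → 5 * N ≤ |x| ^ 3) := by
  obtain ⟨h7, hy2, hpy, h14, h15, -, -⟩ := D.y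
  have hx1 : 0 < x ^ 2 - 1 := by rcases D.hx with h | h <;> nlinarith
  have h1 := Int.le_of_dvd (mul_pos D.hp0 hx1) h
  rw [← hy2] at h1 hx1
  generalize |x| = y at *
  constructor
  · have h2 : p * (y * y - 1) ≤ y * (y * y - 1) := mul_le_mul_of_nonneg_right hpy (by linarith)
    nlinarith
  · intro h5
    have h2 : 5 * p * (y * y - 1) ≤ y * (y * y - 1) := mul_le_mul_of_nonneg_right h5 (by linarith)
    nlinarith

/-- the mixed case: `u² - 1 ∣ x + 1` -/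
theorem TwoD.mixed (h1 : 2 * (u ^ 2 - 1) ∣ (x ^ 2 + 1) * (x + 1)) (h2 : 2 * (u ^ 2 - 1) ∣ p * (x ^ 2 - 1)) :
    u ^ 2 - 1 ∣ x + 1 := by
  have hcop : IsCoprime (2 * (u ^ 2 - 1)) p := by
    have h4 : IsCoprime ((x ^ 2 + 1) * (x + 1)) x := ⟨1, -(x ^ 2 + x + 1), by ring⟩
    exact (h4.of_isCoprime_of_dvd_left h1).of_isCoprime_of_dvd_right D.pd
  have h5 := hcop.dvd_of_dvd_mul_left h2
  have h6 : 2 * (u ^ 2 - 1) ∣ 2 * (x + 1) := by
    have : 2 * (x + 1) = (x ^ 2 + 1) * (x + 1) - (x + 1) * (x ^ 2 - 1) := by ring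
    rw [this]
    exact dvd_sub h1 (h5.mul_left _)
  exact (mul_dvd_mul_iff_left (by norm_num)).1 h6

/-- the conditions -/
def CondII (p x u δ ε : ℤ) : Prop :=
  2 * ((u ^ 2 - 1) * (u ^ 2 + ε * u + 1)) ∣ (x ^ 2 + 1) * (x + 1) ∨
  (u ^ 2 - 1) * (u ^ 2 + ε * u + 1) ∣ x ^ 2 - 1 ∨ 2 * ((u ^ 2 - 1) * (u ^ 2 + ε * u + 1)) ∣ p * (x ^ 2 - 1) ∨
  (u ^ 2 - 1) * (u ^ 2 + ε * u + 1) ∣ p * (x - 1) ∨ 2 * ((u ^ 2 - 1) * (u ^ 2 + ε * u + 1)) ∣ δ * (x - 1)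

/-- `5 (x² + x + 1) ≤ 3 T` -/
theorem killS (hδ : δ = 1 ∨ δ = 3) (hS : 5 * (x ^ 2 + x + 1) ≤ 3 * (u ^ 4 - u ^ 2 + 1))
    (hF : ∀ ε : ℤ, ε = 1 ∨ ε = -1 → CondII p x u δ ε) : False := by
  obtain ⟨h7, hy2, hpy, h14, h15, h12, -⟩ := D.y
  have hu := D.hu
  have h20 : 20 * x ^ 2 ≤ 13 * (u ^ 4 - u ^ 2 + 1) := by linarith
  obtain ⟨t, ht, htu⟩ : ∃ t : ℤ, 0 ≤ t ∧ u = t + 3 := ⟨u - 3, by omega, by ring⟩
  have i1 : 0 < 7 * u ^ 4 - 20 * u ^ 3 + 13 * u ^ 2 + 20 * u - 13 := by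
    rw [htu]; clear * - ht; ring_nf; positivity
  have i2 : 0 < 3 * u ^ 4 - 10 * u ^ 3 + 7 * u ^ 2 + 10 * u - 17 := by
    rw [htu]; clear * - ht; ring_nf; positivity
  have i3 : 0 < 520 * (u ^ 4 - u ^ 3 + u - 1) - 78 * (u ^ 4 - u ^ 2 + 1) := by
    rw [htu]; clear * - ht; ring_nf; positivity
  have i4 : 0 < 7 * u ^ 4 - 67 * u ^ 2 + 67 := by
    rw [htu]; clear * - ht; ring_nf; positivity
  have i5 : 9 ≤ u ^ 2 := by nlinarith
  have i6 : 729 ≤ u ^ 6 := by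
    calc (729 : ℤ) = 3 ^ 6 := by norm_num
      _ ≤ u ^ 6 := pow_le_pow_left₀ (by norm_num) hu 6
  have hTu : u ^ 4 - u ^ 2 + 1 ≤ u ^ 4 := by linarith
  have hy : 10 * |x| ≤ 9 * u ^ 2 := by
    by_contra h
    push Not at h
    have h3 : (9 * u ^ 2) * (9 * u ^ 2) ≤ (10 * |x|) * (10 * |x|) := mul_self_le_mul_self (by positivity) h.le
    have h4 : 0 < u ^ 4 := by positivity
    nlinarith
  have hy3 : 200 * |x| ^ 3 ≤ 117 * u ^ 6 := by
    have h1 : (20 * x ^ 2) * (10 * |x|) ≤ (13 * u ^ 4) * (9 * u ^ 2) :=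
      mul_le_mul (by linarith) hy (by positivity) (by positivity)
    rw [← hy2] at h1
    nlinarith
  have kC : ∀ {ε : ℤ}, ε = 1 ∨ ε = -1 → (u ^ 2 - 1) * (u ^ 2 + ε * u + 1) ∣ x ^ 2 - 1 → False := by
    intro ε hε hd
    have h1 := Int.le_of_dvd (by nlinarith) hd
    have h2 := fb_le hu hε
    linarith
  have kE : ∀ {ε : ℤ}, ε = 1 ∨ ε = -1 → (u ^ 2 - 1) * (u ^ 2 + ε * u + 1) ∣ p * (x - 1) → False := by
    intro ε hε hd
    have h1 := D.E_le hd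
    have h2 := fb_le hu hε
    linarith
  have kF : ∀ {ε : ℤ}, ε = 1 ∨ ε = -1 → 2 * ((u ^ 2 - 1) * (u ^ 2 + ε * u + 1)) ∣ δ * (x - 1) → False := by
    intro ε hε hd
    have h1 := D.F_le hδ hd
    have h2 := fb_le hu hε
    linarith
  have key : ∀ {ε : ℤ} {X : ℤ}, 2 * ((u ^ 2 - 1) * (u ^ 2 + ε * u + 1)) ∣ X → 2 * (u ^ 2 - 1) ∣ X :=
    fun {ε X} h => (Dvd.intro (u ^ 2 + ε * u + 1) (by ring)).trans h
  have hu1 : u ^ 2 - 1 ≠ 0 := by linarith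
  have kM : 2 * (u ^ 2 - 1) ∣ (x ^ 2 + 1) * (x + 1) → 2 * (u ^ 2 - 1) ∣ p * (x ^ 2 - 1) → False := by
    intro h1 h2
    have h3 := le_abs_of_dvd (D.mixed h1 h2) (by have := D.hx; omega)
    have h4 : u ^ 2 - 2 ≤ |x| := by linarith
    have h5 : (u ^ 2 - 2) * (u ^ 2 - 2) ≤ |x| * |x| := mul_self_le_mul_self (by linarith) h4
    rw [hy2] at h5
    nlinarith
  rcases hF 1 (Or.inl rfl) with h1 | h1 | h1 | h1 | h1
  · rcases hF (-1) (Or.inr rfl) with h2 | h2 | h2 | h2 | h2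
    · have h3 := D.B_le (both_dvd (by norm_num) hu1 h1 h2)
      linarith
    · exact kC (Or.inr rfl) h2
    · exact kM (key h1) (key h2)
    · exact kE (Or.inr rfl) h2
    · exact kF (Or.inr rfl) h2
  · exact kC (Or.inl rfl) h1
  · rcases hF (-1) (Or.inr rfl) with h2 | h2 | h2 | h2 | h2
    · exact kM (key h2) (key h1)
    · exact kC (Or.inr rfl) h2
    · have h3 := (D.D_le (both_dvd (by norm_num) hu1 h1 h2)).1
      linarith
    · exact kE (Or.inr rfl) h2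
    · exact kF (Or.inr rfl) h2
  · exact kE (Or.inl rfl) h1
  · exact kF (Or.inl rfl) h1

omit D in
theorem no_L1 {z t : ℤ} (hz : 8 ≤ z) (hz9 : z ≠ 9) (h : z * (t ^ 2 - 3) = 3 - 3 * t) : False := by
  rcases (by omega : t ≤ -3 ∨ t = -2 ∨ t = -1 ∨ t = 0 ∨ t = 1 ∨ 2 ≤ t) with h1 | rfl | rfl | rfl | rfl | h1
  · have h2 : 0 ≤ t ^ 2 - 3 := by nlinarith
    have h3 : 8 * (t ^ 2 - 3) ≤ z * (t ^ 2 - 3) := mul_le_mul_of_nonneg_right hz h2
    nlinarith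
  · omega
  · omega
  · omega
  · omega
  · have h2 : 0 ≤ t ^ 2 - 3 := by nlinarith
    have h3 : 8 * (t ^ 2 - 3) ≤ z * (t ^ 2 - 3) := mul_le_mul_of_nonneg_right hz h2
    nlinarith

omit D in
theorem no_L2 {z t : ℤ} (hz : 8 ≤ z) (hz9 : z ≠ 9) (h : z * (t ^ 2 - 12) = 12 - 6 * t) : False := by
  rcases (by omega : t ≤ -5 ∨ t = -4 ∨ t = -3 ∨ t = -2 ∨ t = -1 ∨ t = 0 ∨ t = 1 ∨ t = 2 ∨ t = 3 ∨ 4 ≤ t) with
    h1 | rfl | rfl | rfl | rfl | rfl | rfl | rfl | rfl | h1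
  · have h2 : 0 ≤ t ^ 2 - 12 := by nlinarith
    have h3 : 8 * (t ^ 2 - 12) ≤ z * (t ^ 2 - 12) := mul_le_mul_of_nonneg_right hz h2
    nlinarith
  · omega
  · omega
  · omega
  · omega
  · omega
  · omega
  · omega
  · omega
  · have h2 : 0 ≤ t ^ 2 - 12 := by nlinarith
    have h3 : 8 * (t ^ 2 - 12) ≤ z * (t ^ 2 - 12) := mul_le_mul_of_nonneg_right hz h2
    nlinarith

/-- a multiple of `u⁶ - 1` -/
theorem jle {X j : ℤ} (hX : X = 2 * (u ^ 6 - 1) * j) (hb : 5 * |X| ≤ 37 * u ^ 6 + u ^ 6) : |j| ≤ 3 := by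
  have hu := D.hu
  have i6 : 729 ≤ u ^ 6 := by
    calc (729 : ℤ) = 3 ^ 6 := by norm_num
      _ ≤ u ^ 6 := pow_le_pow_left₀ (by norm_num) hu 6
  by_contra h
  push Not at h
  rw [hX, abs_mul, abs_of_nonneg (by linarith : 0 ≤ 2 * (u ^ 6 - 1))] at hb
  have h1 : 2 * (u ^ 6 - 1) * 4 ≤ 2 * (u ^ 6 - 1) * |j| := mul_le_mul_of_nonneg_left (by omega) (by linarith)
  linarith

/-- `x² + x + 1 = 3 T` -/
theorem killL (hδ : δ = 1 ∨ δ = 3) (hL : x ^ 2 + x + 1 = 3 * (u ^ 4 - u ^ 2 + 1))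
    (hF : ∀ ε : ℤ, ε = 1 ∨ ε = -1 → CondII p x u δ ε) : False := by
  obtain ⟨h7, hy2, hpy, h14, h15, h12, h16⟩ := D.y
  have hu := D.hu
  have h4 : 4 * x ^ 2 ≤ 13 * (u ^ 4 - u ^ 2 + 1) := by linarith
  obtain ⟨t, ht, htu⟩ : ∃ t : ℤ, 0 ≤ t ∧ u = t + 3 := ⟨u - 3, by omega, by ring⟩
  have i1 : 0 < 3 * u ^ 4 - 10 * u ^ 3 + 7 * u ^ 2 + 10 * u - 17 := by
    rw [htu]; clear * - ht; ring_nf; positivity
  have i3 : 0 < 104 * (u ^ 4 - u ^ 3 + u - 1) - 78 * (u ^ 4 - u ^ 2 + 1) := by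
    rw [htu]; clear * - ht; ring_nf; positivity
  have i7 : 0 < 10 * (u ^ 4 - u ^ 2 + 1) - 19 * u ^ 2 - 160 := by
    rw [htu]; clear * - ht; ring_nf; positivity
  have i5 : 9 ≤ u ^ 2 := by nlinarith
  have i6 : 729 ≤ u ^ 6 := by
    calc (729 : ℤ) = 3 ^ 6 := by norm_num
      _ ≤ u ^ 6 := pow_le_pow_left₀ (by norm_num) hu 6
  have hz9 : u ^ 2 - 1 ≠ 9 := by
    intro h
    rcases (by omega : u = 3 ∨ 4 ≤ u) with h1 | h1
    · rw [h1] at h; norm_num at h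
    · nlinarith
  have hTu : u ^ 4 - u ^ 2 + 1 ≤ u ^ 4 := by linarith
  have hy : 10 * |x| ≤ 19 * u ^ 2 := by
    by_contra h
    push Not at h
    have h3 : (19 * u ^ 2) * (19 * u ^ 2) ≤ (10 * |x|) * (10 * |x|) := mul_self_le_mul_self (by positivity) h.le
    have h4 : 0 < u ^ 4 := by positivity
    nlinarith
  have hy3 : 40 * |x| ^ 3 ≤ 247 * u ^ 6 := by
    have h1 : (4 * x ^ 2) * (10 * |x|) ≤ (13 * u ^ 4) * (19 * u ^ 2) :=
      mul_le_mul (by linarith) hy (by positivity) (by positivity)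
    rw [← hy2] at h1
    nlinarith
  have kz : ∀ {ε X : ℤ}, (u ^ 2 - 1) * (u ^ 2 + ε * u + 1) ∣ X → u ^ 2 - 1 ∣ X := fun h => (dvd_mul_right _ _).trans h
  have kC : ∀ {ε : ℤ}, ε = 1 ∨ ε = -1 → (u ^ 2 - 1) * (u ^ 2 + ε * u + 1) ∣ x ^ 2 - 1 → False := by
    intro ε hε hd
    have h1 : u ^ 2 - 1 ∣ x - 1 := by
      have : x - 1 = (u ^ 2 - 1) * (3 * u ^ 2) - (x ^ 2 - 1) := by linear_combination hL
      rw [this]
      exact dvd_sub (dvd_mul_right _ _) (kz hd)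
    obtain ⟨s, hs⟩ := h1
    refine no_L1 (z := u ^ 2 - 1) (t := s) (by linarith) hz9 ?_
    have hx' : x = (u ^ 2 - 1) * s + 1 := by linarith
    rw [hx'] at hL
    refine mul_left_cancel₀ (show u ^ 2 - 1 ≠ 0 by linarith) ?_
    linear_combination hL
  have kE : ∀ {ε : ℤ}, ε = 1 ∨ ε = -1 → (u ^ 2 - 1) * (u ^ 2 + ε * u + 1) ∣ p * (x - 1) → False := by
    intro ε hε hd
    rcases D.pc with hp | hp
    · have h0 : u ^ 2 - 1 ∣ x * (x - 1) := by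
        have h1 := kz hd
        rw [hp] at h1
        rcases abs_choice x with h2 | h2 <;> rw [h2] at h1
        · exact h1
        · rw [neg_mul, dvd_neg] at h1
          exact h1
      have h1 : u ^ 2 - 1 ∣ 2 * (x - 1) := by
        have : 2 * (x - 1) = (u ^ 2 - 1) * (3 * u ^ 2) - x * (x - 1) := by linear_combination hL
        rw [this]
        exact dvd_sub (dvd_mul_right _ _) h0
      obtain ⟨s, hs⟩ := h1
      refine no_L2 (z := u ^ 2 - 1) (t := s) (by linarith) hz9 ?_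
      refine mul_left_cancel₀ (show u ^ 2 - 1 ≠ 0 by linarith) ?_
      linear_combination 4 * hL - (2 * (x - 1) + (u ^ 2 - 1) * s + 6) * hs
    · have h1 := le_abs_of_dvd hd D.ne.2.1
      rw [abs_mul, abs_of_pos D.hp0] at h1
      have h2 : (5 * p) * |x - 1| ≤ |x| * |x - 1| := mul_le_mul_of_nonneg_right hp (abs_nonneg _)
      have h3 : |x| * (13 * |x - 1|) ≤ |x| * (14 * |x|) := mul_le_mul_of_nonneg_left h14 (abs_nonneg _)
      have h5 := fb_le hu hε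
      nlinarith
  have kF : ∀ {ε : ℤ}, ε = 1 ∨ ε = -1 → 2 * ((u ^ 2 - 1) * (u ^ 2 + ε * u + 1)) ∣ δ * (x - 1) → False := by
    intro ε hε hd
    have h1 := D.F_le hδ hd
    have h2 := fb_le hu hε
    linarith
  have key : ∀ {ε : ℤ} {X : ℤ}, 2 * ((u ^ 2 - 1) * (u ^ 2 + ε * u + 1)) ∣ X → 2 * (u ^ 2 - 1) ∣ X :=
    fun {ε X} h => (Dvd.intro (u ^ 2 + ε * u + 1) (by ring)).trans h
  have hu1 : u ^ 2 - 1 ≠ 0 := by linarith
  have kM : 2 * (u ^ 2 - 1) ∣ (x ^ 2 + 1) * (x + 1) → 2 * (u ^ 2 - 1) ∣ p * (x ^ 2 - 1) → False := by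
    intro h1 h2
    have h3 := D.mixed h1 h2
    have h5 : u ^ 2 - 1 ∣ 2 := by
      have : (2 : ℤ) = x * (x + 1) - (u ^ 2 - 1) * (3 * u ^ 2) := by linear_combination -hL
      rw [this]
      exact dvd_sub (h3.mul_left _) (dvd_mul_right _ _)
    have := Int.le_of_dvd (by norm_num) h5
    linarith
  have hT73 : 73 ≤ u ^ 4 - u ^ 2 + 1 := by nlinarith
  rcases hF 1 (Or.inl rfl) with h1 | h1 | h1 | h1 | h1
  · rcases hF (-1) (Or.inr rfl) with h2 | h2 | h2 | h2 | h2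
    · obtain ⟨j, hj⟩ := both_dvd (by norm_num) hu1 h1 h2
      have h3 := D.B_le (N := |(x ^ 2 + 1) * (x + 1)|) ((abs_dvd _ _).2 dvd_rfl)
      have hj3 := jle D hj (by linarith)
      rw [abs_le] at hj3
      have h5 : u ^ 4 - u ^ 2 + 1 ∣ 4 * j + 1 := ⟨2 * j * (u ^ 2 + 1) - 3 * x, by linear_combination hj - x * hL⟩
      have h6 := le_abs_of_dvd h5 (by omega)
      have h8 : |4 * j + 1| ≤ 13 := by rw [abs_le]; omega
      linarith
    · exact kC (Or.inr rfl) h2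
    · exact kM (key h1) (key h2)
    · exact kE (Or.inr rfl) h2
    · exact kF (Or.inr rfl) h2
  · exact kC (Or.inl rfl) h1
  · rcases hF (-1) (Or.inr rfl) with h2 | h2 | h2 | h2 | h2
    · exact kM (key h2) (key h1)
    · exact kC (Or.inr rfl) h2
    · have hbd := both_dvd (by norm_num) hu1 h1 h2
      rcases D.pc with hp | hp
      · have h0 : 2 * (u ^ 6 - 1) ∣ x * (x ^ 2 - 1) := by
          rw [hp] at hbd
          rcases abs_choice x with h2 | h2 <;> rw [h2] at hbd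
          · exact hbd
          · rw [neg_mul, dvd_neg] at hbd
            exact hbd
        obtain ⟨j, hj⟩ := h0
        have h3 : |x * (x ^ 2 - 1)| ≤ |x| ^ 3 := by
          have hx1 : 0 < x ^ 2 - 1 := by rcases D.hx with h | h <;> nlinarith
          rw [abs_mul, abs_of_pos hx1, ← hy2]
          nlinarith
        have hj3 := jle D hj (by linarith)
        rw [abs_le] at hj3
        have h5 : u ^ 4 - u ^ 2 + 1 ∣ 1 - x + 4 * j :=
          ⟨2 * j * (u ^ 2 + 1) - 3 * (x - 1), by linear_combination hj - (x - 1) * hL⟩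
        have h8 : |1 - x + 4 * j| ≤ |x| + 13 := by
          rw [abs_le]
          have := abs_le.1 (le_refl |x|)
          constructor <;> linarith [this.1, this.2]
        by_cases h9 : 1 - x + 4 * j = 0
        · have := D.x4
          omega
        · have h6 := le_abs_of_dvd h5 h9
          linarith
      · have h3 := (D.D_le hbd).2 hp
        linarith
    · exact kE (Or.inr rfl) h2
    · exact kF (Or.inr rfl) h2
  · exact kE (Or.inl rfl) h1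
  · exact kF (Or.inl rfl) h1

end two

/-- **type II** -/
theorem d4_numII {p x u a δ : ℤ} (D : TwoD p x u) (hδ : δ = 1 ∨ δ = 3) (ha : 1 ≤ a) (hodd : a % 2 = 1)
    (hT : δ * (u ^ 4 - u ^ 2 + 1) = a * (x ^ 2 + x + 1)) (hne : x ^ 2 + x + 1 ≠ u ^ 4 - u ^ 2 + 1)
    (hF : ∀ ε : ℤ, ε = 1 ∨ ε = -1 → CondII p x u δ ε) : False := by
  have hQ : 0 < x ^ 2 + x + 1 := by rcases D.hx with h | h <;> nlinarith
  rcases hδ with rfl | rfl
  · rcases (by omega : a = 1 ∨ 3 ≤ a) with rfl | h3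
    · exact hne (by linarith)
    · refine killS D (Or.inl rfl) ?_ hF
      have : 3 * (x ^ 2 + x + 1) ≤ a * (x ^ 2 + x + 1) := mul_le_mul_of_nonneg_right h3 hQ.le
      linarith
  · rcases (by omega : a = 1 ∨ a = 3 ∨ 5 ≤ a) with rfl | rfl | h3
    · exact killL D (Or.inr rfl) (by linarith) hF
    · exact hne (by linarith)
    · refine killS D (Or.inr rfl) ?_ hF
      have : 5 * (x ^ 2 + x + 1) ≤ a * (x ^ 2 + x + 1) := mul_le_mul_of_nonneg_right h3 hQ.le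
      linarith

end Cfsg.Agent.R2.Spec.X3.H18
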